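import Mathlib
import Cfsg.Agent.Lib.Dickson.MinSimple
import Cfsg.Agent.Lib.Dickson.Klein
import Cfsg.Agent.Lib.Core.Basic
import Cfsg.Agent.Lib.Coprime.Action

/-!
# Solubilizers in the minimal simple groups `PSL₂(2^r)` and `PSL₂(3^r)`
-/

set_option autoImplicit false

namespace CfsgLib.PslSol

open CfsgLib.Dickson MulAction Matrix P1 Subgroup
open scoped MatrixGroups

theorem isSolvable_of_le {G : Type*} [Group G] {H K : Subgroup G} (h : H ≤ K) (hK : Group.IsSolvable K) :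
    Group.IsSolvable H := Group.isSolvable_of_isSolvable_injective (inclusion_injective h)

theorem isSolvable_of_sq {G : Type*} [Group G] {x y : G} (hx : x ^ 2 = 1) (h : (x * y) ^ 2 = 1 ∨ y ^ 2 = 1) :
    Group.IsSolvable (closure ({x, y} : Set G)) := by
  have key : ∀ r : G, (x * r) ^ 2 = 1 → Group.IsSolvable (zpowers x ⊔ zpowers r : Subgroup G) := fun r hr => by
    have h1 : x * r * x⁻¹ = r⁻¹ := by
      rw [← mul_eq_one_iff_inv_eq.1 ((sq x).symm.trans hx), inv_inv, eq_inv_iff_mul_eq_one,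
        mul_eq_one_iff_inv_eq.1 ((sq x).symm.trans hx), ← hr, sq, mul_assoc]
    have := Coprime.isSolvable_zpowers x
    have := Coprime.isSolvable_zpowers r
    exact Core.isSolvable_sup_of_le_normalizer (zpowers_le.2 (mem_normalizer_iff_map_conj.2 (by
      rw [MonoidHom.map_zpowers]; exact (congrArg zpowers h1).trans zpowers_inv)))
  rcases h with h | h
  · exact isSolvable_of_le ((closure_le _).2 (Set.pair_subset (mem_sup_left (mem_zpowers x))
      (mem_sup_right (mem_zpowers y)))) (key y h)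
  · have e : x * (x * y) = y := by rw [← mul_assoc, ← sq, hx, one_mul]
    exact isSolvable_of_le ((closure_le _).2 (Set.pair_subset (mem_sup_left (mem_zpowers x))
      (Set.mem_of_eq_of_mem e.symm
        (mul_mem (mem_sup_left (mem_zpowers x)) (mem_sup_right (mem_zpowers (x * y)))))))
      (key (x * y) (by rwa [e]))

theorem a4_two : ∀ x y : alternatingGroup (Fin 4), x ^ 2 = 1 → x ≠ 1 →
    y ^ 2 = 1 ∨ (y ^ 3 = 1 ∧ (x * y) ^ 3 = 1) := by
  decide +kernel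

theorem a4_three : ∀ x y : alternatingGroup (Fin 4), x ^ 3 = 1 → x ≠ 1 → y * x = x * y ∨
    (y ^ 2 = 1 ∧ (x * y) ^ 3 = 1) ∨ ((x * y) ^ 2 = 1 ∧ y ^ 3 = 1) ∨ ((x⁻¹ * y) ^ 2 = 1 ∧ y ^ 3 = 1) := by
  decide +kernel

variable {F : Type*} [Field F]

local notation "L" => MonoidHom.range (pslPGL F)

/-- The solubilizer of `x` in `PSL₂(F)`. -/
def Sol (x : PGL(2, F)) : Set PGL(2, F) := {y | y ∈ L ∧ Group.IsSolvable (closure ({x, y} : Set PGL(2, F)))}

theorem card_sol (x : PSL(2, F)) : Nat.card {y // Group.IsSolvable (closure ({x, y} : Set PSL(2, F)))} =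
    (Sol (pslPGL F x)).ncard := by
  have h : ∀ y, Group.IsSolvable (closure ({x, y} : Set PSL(2, F))) ↔
      Group.IsSolvable (closure ({pslPGL F x, pslPGL F y} : Set PGL(2, F))) := fun y => by
    rw [← Set.image_pair, ← MonoidHom.map_closure]
    exact ⟨isSolvable_of_equiv ⟨(equivMapOfInjective _ _ pslPGL_injective).symm⟩,
      isSolvable_of_equiv ⟨equivMapOfInjective _ _ pslPGL_injective⟩⟩
  rw [show Sol (pslPGL F x) = pslPGL F '' {y | Group.IsSolvable (closure ({x, y} : Set PSL(2, F)))} from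
    Set.ext fun y => ⟨fun ⟨⟨z, hz⟩, h'⟩ => ⟨z, (h z).2 (hz ▸ h'), hz⟩,
      fun ⟨z, hz, e⟩ => e ▸ ⟨⟨z, rfl⟩, (h z).1 hz⟩⟩, Set.ncard_image_of_injective _ pslPGL_injective]
  rfl

theorem ncard_sol_conj (k x : PGL(2, F)) : (Sol (k * x * k⁻¹)).ncard = (Sol x).ncard := by
  have h : ∀ k x y : PGL(2, F), y ∈ Sol x → k * y * k⁻¹ ∈ Sol (k * x * k⁻¹) := fun k x y hy =>
    ⟨psl_normal.conj_mem _ hy.1 k, by
      have := isSolvable_of_equiv ⟨(equivMapOfInjective _ (MulAut.conj k).toMonoidHom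
        (MulAut.conj k).injective).symm⟩ hy.2
      rwa [MonoidHom.map_closure, Set.image_pair] at this⟩
  rw [← Set.ncard_image_of_injective (Sol x) (MulAut.conj k).injective]
  congr 1
  exact Set.ext fun y => ⟨fun hy => ⟨_, by simpa [mul_assoc] using h k⁻¹ _ _ hy, by simp [mul_assoc]⟩,
    fun ⟨z, hz, e⟩ => e ▸ h k x z hz⟩

theorem mem_sol_of_le {x y : PGL(2, F)} {H : Subgroup PGL(2, F)} (hH : Group.IsSolvable H) (hx : x ∈ H)
    (hy : y ∈ H) (hL : y ∈ L) : y ∈ Sol x :=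
  ⟨hL, isSolvable_of_le ((closure_le _).2 (Set.pair_subset hx hy)) hH⟩

theorem isSolvable_range (φ : alternatingGroup (Fin 4) →* PGL(2, F)) : Group.IsSolvable φ.range :=
  have : Group.IsSolvable (alternatingGroup (Fin 4)) := isSolvable_of_card_dvd (by rw [card_A4]; norm_num)
  Group.isSolvable_of_surjective φ.rangeRestrict_surjective

/-- The elements of `PGL₂(F)` moving `∞`, by trace, lower right entry and determinant. -/
noncomputable def out (s a : F) (δ : Fˣ) : PGL(2, F) :=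
  pm (s + a) (-(a * (s + a)) - δ) 1 (-a) (by convert δ.ne_zero using 1; ring)

theorem out_smul_inf (s a : F) (δ : Fˣ) : out s a δ • (inf : P1 F) ≠ inf :=
  mt pm_smul_inf_eq_inf.1 one_ne_zero

theorem out_ne_one (s a : F) (δ : Fˣ) : out s a δ ≠ 1 := fun h => out_smul_inf s a δ (by rw [h, one_smul])

theorem exists_out {y : PGL(2, F)} (h : y • (inf : P1 F) ≠ inf) : ∃ s a δ, y = out s a δ := by
  obtain ⟨a, b, c, d, h', rfl⟩ := exists_pm y
  have hc : c ≠ 0 := mt pm_smul_inf_eq_inf.2 h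
  exact ⟨(a + d) / c, -d / c, Units.mk0 ((a * d - b * c) / c ^ 2) (div_ne_zero h' (pow_ne_zero 2 hc)),
    pm_eq_pm_iff.2 ⟨c⁻¹, by field, by simp; field, by field, by field⟩⟩

theorem out_inj {s a s' a' : F} {δ δ' : Fˣ} (h : out s a δ = out s' a' δ') : s = s' ∧ a = a' ∧ δ = δ' := by
  obtain ⟨u, h1, h2, h3, h4⟩ := pm_eq_pm_iff.1 h
  obtain rfl : u = 1 := by rw [h3, mul_one]
  obtain rfl : a = a' := by linear_combination h4
  obtain rfl : s = s' := by linear_combination -h1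
  exact ⟨rfl, rfl, Units.ext (by linear_combination h2)⟩

theorem aff_mul_out (b s a : F) (δ : Fˣ) : aff 1 b one_ne_zero * out s a δ = out (b + s) a δ :=
  (pm_mul ..).trans (pm_congr (by ring) (by ring) (by ring) (by ring))

theorem tau_out (s a : F) (δ : Fˣ) : tau (out s a δ) = s ^ 2 / δ := by
  rw [out, tau_pm]; congr 1 <;> ring

theorem out_sq {s a : F} {δ : Fˣ} : out s a δ ^ 2 = 1 ↔ s = 0 := by
  simp [pow_two_eq_one_iff, tau_out, out_ne_one]

theorem out_cube {s a : F} {δ : Fˣ} : out s a δ ^ 3 = 1 ↔ s ^ 2 = δ := by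
  simp [pow_three_eq_one_iff, tau_out, out_ne_one, div_eq_one_iff_eq]

theorem out_mem {s a : F} {δ : Fˣ} : out s a δ ∈ L ↔ IsSquare (δ : F) := by
  rw [out, pm_mem_range_pslPGL_iff]; congr! 1; ring

theorem ncard_out (S : Set (F × F × Fˣ)) : ((fun x => out x.1 x.2.1 x.2.2) '' S).ncard = S.ncard :=
  Set.ncard_image_of_injective _ fun _ _ h => Prod.ext (out_inj h).1 (Prod.ext (out_inj h).2.1 (out_inj h).2.2)

theorem emb_eq_inf {x : PGL(2, F)} {b : F} (hb : b ≠ 0) (hx : x = aff 1 b one_ne_zero) {c : Pbar F}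
    (h : x • c = c) : c = emb inf :=
  (isUnip_emb_iff.2 (isUnip_inf_iff.2 ⟨b, hx⟩)).eq_of_fix (by simp [hx, aff_eq_one_iff, hb]) h

theorem swap_sq {a b : Pbar F} (hab : a ≠ b) {y : PGL(2, F)} (h : y • a = b ∧ y • b = a) : y ^ 2 = 1 := by
  obtain ⟨p, hp⟩ := CharP.exists F
  rcases CharP.char_is_prime_or_zero F p with h' | rfl
  · have := Fact.mk h'
    exact (sq y).trans ((mob_bar p).swap_mul_self hab h.1 h.2)
  · have := CharP.charP_to_charZero F
    exact (sq y).trans ((mob_bar_charZero Nat.prime_two).swap_mul_self hab h.1 h.2)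

theorem sq_of_swap {a b : Pbar F} (hab : a ≠ b) {x y : PGL(2, F)} (h : x • a = b ∧ x • b = a)
    (hy : y ∈ pairStab L a b) : (x * y) ^ 2 = 1 ∨ y ^ 2 = 1 :=
  hy.2.imp (fun hy => swap_sq hab (by rwa [mul_smul, mul_smul, hy.1, hy.2])) (swap_sq hab)

variable [Finite F]

theorem sol_cases (p : ℕ) [CharP F p] {r : ℕ} (hr : r.Prime) (hF : Nat.card F = p ^ r)
    (hp : p = 2 ∨ p = 3 ∧ Odd r) {x y : PGL(2, F)} (hx : x ∈ L) (hy : y ∈ Sol x) :
    (∃ a : P1 F, x • emb a = emb a ∧ y • emb a = emb a) ∨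
    (∃ a b : Pbar F, a ≠ b ∧ x ∈ pairStab L a b ∧ y ∈ pairStab L a b) ∨
    p = 3 ∧ ∃ φ : alternatingGroup (Fin 4) →* PGL(2, F), Function.Injective φ ∧ x ∈ φ.range ∧ y ∈ φ.range := by
  have : Fact p.Prime := ⟨by rcases hp with rfl | ⟨rfl, -⟩ <;> norm_num⟩
  have h1 : x ∈ closure ({x, y} : Set PGL(2, F)) := subset_closure (by simp)
  have h2 : y ∈ closure ({x, y} : Set PGL(2, F)) := subset_closure (by simp)
  have h3 : closure ({x, y} : Set PGL(2, F)) ≤ L := (closure_le _).2 (Set.pair_subset hx hy.1)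
  rcases dickson_fin p (closure {x, y}) with ⟨a, h⟩ | ⟨a, b, hab, h⟩ | ⟨a, b, hab, h⟩ | h | h | h |
    ⟨K, k, hK, h⟩
  · exact .inl ⟨a, (h h1).2, (h h2).2⟩
  · exact .inr (.inl ⟨_, _, emb_injective.ne hab, le_pairStab_of_le h h3 h1, le_pairStab_of_le h h3 h2⟩)
  · exact .inr (.inl ⟨_, _, hab.2.1, le_pairStab_of_le h h3 h1, le_pairStab_of_le h h3 h2⟩)
  · omega
  · omega
  · exact absurd (isSolvable_of_equiv (h.2.2.map .symm) hy.2) A5_not_isSolvable
  have h4 := card_bot_subfield (F := F) p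
  rcases subfield_eq_of_prime hr (hF.trans (by rw [h4])) (bot_le (a := K)) with rfl | rfl
  · obtain ⟨rfl, ho⟩ := hp.resolve_left (by omega)
    have h5 := (le_inf (le_pglSub_of h) h3).trans_eq (pglSub_inf_psl (hF.trans (by rw [h4])) ho k)
    obtain ⟨A, hA⟩ := exists_A4 (K := (⊥ : Subfield F)) (two_ne_zero_of_odd_card (by rw [h4]; decide))
    have h6 : A = (pslPGL _).range := eq_of_le_of_card_ge (A4_le_psl hA) (by
      have := card_psl_odd (F := (⊥ : Subfield F)) (by rw [h4]; decide)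
      rw [card_of_equiv hA, card_A4]
      rw [h4] at this
      omega)
    obtain ⟨e⟩ := pslSub_equiv (⊥ : Subfield F) k
    obtain ⟨φ, h7, h8⟩ := nonempty_equiv_iff.1 ⟨(e.trans (MonoidHom.ofInjective pslPGL_injective)).trans
      ((MulEquiv.subgroupCongr h6).symm.trans hA.some)⟩
    exact .inr (.inr ⟨rfl, φ, h7, h8 ▸ h5 h1, h8 ▸ h5 h2⟩)
  · refine absurd (isSolvable_of_equiv ⟨MonoidHom.ofInjective pslPGL_injective⟩
      (isSolvable_of_le (psl_le_of_top h) hy.2)) (psl_not_isSolvable ?_)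
    rw [hF]
    exact (Nat.pow_le_pow_left (Fact.out : p.Prime).two_le 2).trans
      (Nat.pow_le_pow_right (Fact.out : p.Prime).pos hr.two_le)

theorem fix_cases (p : ℕ) [Fact p.Prime] [CharP F p] {x : PGL(2, F)} (hx : x ∈ L) (h : x ^ p ≠ 1) :
    (orderOf x * (L).index ∣ Nat.card F - 1 ∧ ∃ a b : P1 F, a ≠ b ∧ x ∈ stab2 L (emb a) (emb b)) ∨
    (orderOf x * (L).index ∣ Nat.card F + 1 ∧ ∃ a b, IrrPair a b ∧ x ∈ stab2 L a b) := by
  obtain ⟨u, hu⟩ := bar_fix1 x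
  obtain ⟨h1, v, hv, hv'⟩ := exists_fix_of_not_isUnip hu fun h' =>
    h ((mob_bar p).unip_pow u x (isOfFinOrder_of_finite x) h')
  rcases fix_two_cases h1 hv.symm hu hv' with ⟨a, b, hab, rfl, rfl⟩ | ⟨h2, -, h3⟩ <;>
    rcases orderOf_dvd_of_fix_two le_rfl hx hv.symm hu hv' with h4 | h4
  · exact .inl ⟨h4.1, a, b, hab, hx, hu, hv'⟩
  · exact absurd ⟨a, rfl⟩ h4.2.1
  · exact absurd (h4.2 h1) h2.1
  · exact .inr ⟨h4.1, u, v, ⟨h2, hv.symm, h3⟩, hx, hu, hv'⟩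

theorem pairStab_le_of_sq {x : PGL(2, F)} (h : x ^ 2 ≠ 1) {a b c d : Pbar F} (hab : a ≠ b) (hcd : c ≠ d)
    (h1 : x ∈ stab2 L a b) (h2 : x ∈ pairStab L c d) : pairStab L c d ≤ pairStab L a b :=
  le_pairStab_of_le (pairStab_eq_of_fix h hab hcd (pow_mem h1 2) (sq_mem_stab2 (le_pairStab_top le_rfl h2)) ▸
    le_pairStab_top le_rfl) (pairStab_le _ _ _)

theorem not_mem_range {x : PGL(2, F)} (h2 : x ^ 2 ≠ 1) (h3 : x ^ 3 ≠ 1)
    (φ : alternatingGroup (Fin 4) →* PGL(2, F)) : x ∉ φ.range := by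
  rintro ⟨x, rfl⟩
  rcases a4_pow x with h | h | h
  exacts [h2 (hom_pow h), h3 (hom_pow h), h3 (hom_pow h)]

section cases

variable (p : ℕ) [CharP F p] {r : ℕ} (hr : r.Prime) (hF : Nat.card F = p ^ r) (hp : p = 2 ∨ p = 3 ∧ Odd r)
include hr hF hp

theorem ncard_sol_irr {x : PGL(2, F)} (hx : x ∈ L) (h2 : x ^ 2 ≠ 1) (hd : orderOf x ∣ Nat.card F + 1) :
    (Sol x).ncard * (L).index = 2 * (Nat.card F + 1) := by
  have : Fact p.Prime := ⟨by rcases hp with rfl | ⟨rfl, -⟩ <;> norm_num⟩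
  have h3 : x ^ p ≠ 1 := fun h => (Fact.out : p.Prime).not_dvd_one ((Nat.dvd_add_right (char_dvd_card p)).1
    (orderOf_eq_prime h (by rintro rfl; simp at h2) ▸ hd))
  have h4 := (Nat.pow_le_pow_left (Fact.out : p.Prime).two_le 2).trans
    ((Nat.pow_le_pow_right (Fact.out : p.Prime).pos hr.two_le).trans_eq hF.symm)
  rcases fix_cases p hx h3 with ⟨h, -⟩ | ⟨-, a, b, hab, h⟩
  · refine absurd (orderOf_dvd_iff_pow_eq_one.1 ?_) h2
    simpa [show Nat.card F + 1 - (Nat.card F - 1) = 2 by omega] using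
      Nat.dvd_sub hd ((Dvd.intro _ rfl).trans h)
  rw [← hab.card_pairStab le_rfl (by omega)]
  congr 2
  refine Set.Subset.antisymm (fun y hy => ?_) fun y hy => mem_sol_of_le
    (isSolvable_of_le_pairStab hab.2.1 le_rfl) (stab2_le_pairStab _ _ _ h) hy hy.1
  rcases sol_cases p hr hF hp hx hy with ⟨c, h5, -⟩ | ⟨c, d, hcd, h5, h6⟩ | ⟨rfl, φ, -, h5, -⟩
  · rcases bar_fix_cases (by rintro rfl; simp at h2) hab.2.1 h.2.1 h.2.2 h5 with h6 | h6
    exacts [absurd ⟨c, h6⟩ hab.1.1, absurd ⟨c, h6⟩ hab.symm.1.1]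
  · exact pairStab_le_of_sq h2 hab.2.1 hcd h h5 h6
  · exact absurd h5 (not_mem_range h2 h3 φ)

theorem ncard_sol_split {x : PGL(2, F)} (hx : x ∈ L) (h2 : x ^ 2 ≠ 1) (hd : orderOf x ∣ Nat.card F - 1) :
    (Sol x).ncard * (L).index = 2 * (Nat.card F * (Nat.card F - 1)) := by
  have : Fact p.Prime := ⟨by rcases hp with rfl | ⟨rfl, -⟩ <;> norm_num⟩
  have h0 : 0 < Nat.card F := Nat.card_pos
  have h3 : x ^ p ≠ 1 := fun h => (Fact.out : p.Prime).not_dvd_one (by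
    rw [← Nat.sub_sub_self (show 1 ≤ Nat.card F from h0)]
    exact Nat.dvd_sub (char_dvd_card p) (orderOf_eq_prime h (by rintro rfl; simp at h2) ▸ hd))
  rcases fix_cases p hx h3 with ⟨-, a, b, hab, h⟩ | ⟨h, -⟩
  swap
  · refine absurd (orderOf_dvd_iff_pow_eq_one.1 ?_) h2
    simpa [show Nat.card F + 1 - (Nat.card F - 1) = 2 by omega] using
      Nat.dvd_sub ((Dvd.intro _ rfl).trans h) hd
  have hab' := emb_injective.ne hab
  have e : Sol x = (stab L (emb a) ∪ stab L (emb b) : Set _) ∪ pairStab L (emb a) (emb b) := by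
    refine Set.Subset.antisymm (fun y hy => ?_) ?_
    · rcases sol_cases p hr hF hp hx hy with ⟨c, h5, h6⟩ | ⟨c, d, hcd, h5, h6⟩ | ⟨rfl, φ, -, h5, -⟩
      · rcases bar_fix_cases (by rintro rfl; simp at h2) hab' h.2.1 h.2.2 h5 with h7 | h7
        exacts [.inl (.inl ⟨hy.1, h7 ▸ h6⟩), .inl (.inr ⟨hy.1, h7 ▸ h6⟩)]
      · exact .inr (pairStab_le_of_sq h2 hab' hcd h h5 h6)
      · exact absurd h5 (not_mem_range h2 h3 φ)
    · rintro y ((hy | hy) | hy)
      exacts [mem_sol_of_le (isSolvable_of_le_stab le_rfl) ⟨hx, h.2.1⟩ hy hy.1,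
        mem_sol_of_le (isSolvable_of_le_stab le_rfl) ⟨hx, h.2.2⟩ hy hy.1,
        mem_sol_of_le (isSolvable_of_le_pairStab hab' le_rfl) (stab2_le_pairStab _ _ _ h) hy hy.1]
  have e1 := Set.ncard_union_add_ncard_inter (stab L (emb a) : Set PGL(2, F)) (stab L (emb b))
  have e2 := Set.ncard_union_add_ncard_inter (stab L (emb a) ∪ stab L (emb b) : Set PGL(2, F))
    (pairStab L (emb a) (emb b))
  rw [show (stab L (emb a) ∩ stab L (emb b) : Set PGL(2, F)) = stab2 L (emb a) (emb b) from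
    Set.ext fun y => ⟨fun h => ⟨h.1.1, h.1.2, h.2.2⟩, fun h => ⟨⟨h.1, h.2.1⟩, h.1, h.2.2⟩⟩] at e1
  rw [← e, show ((stab L (emb a) ∪ stab L (emb b)) ∩ pairStab L (emb a) (emb b) : Set PGL(2, F)) =
    stab2 L (emb a) (emb b) from Set.ext fun y => ⟨fun h => ⟨h.2.1, h.2.2.resolve_right fun h' =>
      h.1.elim (fun h => hab' (h.2.symm.trans h'.1)) fun h => hab' (h'.2.symm.trans h.2)⟩,
      fun h => ⟨.inl ⟨h.1, h.2.1⟩, stab2_le_pairStab _ _ _ h⟩⟩] at e2
  have e3 : (pairStab L (emb a) (emb b) : Set PGL(2, F)).ncard =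
    2 * (stab2 L (emb a) (emb b) : Set PGL(2, F)).ncard := (pairStab_emb_dihedral le_rfl hab).1
  have e4 : (stab L (emb a) : Set PGL(2, F)).ncard * _ = _ := card_stab_emb le_rfl a
  have e5 : (stab L (emb b) : Set PGL(2, F)).ncard * _ = _ := card_stab_emb le_rfl b
  rw [show (Sol x).ncard = _ + _ from Eq.trans (by omega) e1, add_mul, e4, e5, two_mul]

omit hr hF hp in
theorem exists_conj_aff [Fact p.Prime] {x : PGL(2, F)} (h : orderOf x = p) :
    ∃ (k : PGL(2, F)) (b : F), b ≠ 0 ∧ x = k * aff 1 b one_ne_zero * k⁻¹ := by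
  have h1 : x ≠ 1 := by rintro rfl; exact (Fact.out : p.Prime).ne_one (by simpa using h.symm)
  obtain ⟨u, hu⟩ := bar_fix1 x
  have h2 := bar_isUnip_of_pow_char p hu 1 (by rw [pow_one, ← h, pow_orderOf_eq_one])
  obtain ⟨u, rfl⟩ := mem_range_emb_of_isUnip h2 h1
  obtain ⟨k, rfl⟩ := exists_smul_inf u
  obtain ⟨b, hb⟩ := isUnip_inf_iff.1 (isUnip_smul_iff.1 (isUnip_emb_iff.1 h2))
  refine ⟨k, b, ?_, by rw [← hb]; group⟩
  rintro rfl
  exact h1 (by simpa [aff_one_zero, mul_assoc, inv_mul_eq_one] using hb)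

omit hr hF hp in
theorem ncard_stab_union {S : Set (F × F × Fˣ)} {X : Set PGL(2, F)}
    (h : X = (stab L (emb (inf : P1 F)) : Set PGL(2, F)) ∪ (fun x => out x.1 x.2.1 x.2.2) '' S) :
    X.ncard * (L).index = Nat.card F * (Nat.card F - 1) + S.ncard * (L).index := by
  rw [h, Set.ncard_union_eq (Set.disjoint_right.2 (by
    rintro _ ⟨x, -, rfl⟩ h
    exact out_smul_inf _ _ _ (smul_emb_eq_iff.1 h.2))), add_mul, ncard_out, ← card_stab_emb le_rfl inf]
  rfl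

end cases

theorem ncard_sol_two [CharP F 2] {r : ℕ} (hr : r.Prime) (hF : Nat.card F = 2 ^ r) {x : PGL(2, F)}
    (h : orderOf x = 2) : (Sol x).ncard = 3 * Nat.card F * (Nat.card F - 1) := by
  obtain ⟨k, b, hb, rfl⟩ := exists_conj_aff 2 h
  have h1 := index_psl_even (F := F) (by rw [hF]; exact (Nat.even_pow' hr.ne_zero).2 even_two)
  have h2 : ∀ g, g ∈ L := fun g => index_eq_one.1 h1 ▸ mem_top g
  have h3 : aff 1 b one_ne_zero ^ 2 = 1 := by simp [aff_one_pow, aff_eq_one_iff, CharTwo.two_eq_zero]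
  have := ncard_stab_union (S := {0, b} ×ˢ Set.univ) (X := Sol (aff 1 b one_ne_zero))
    (Set.Subset.antisymm (fun y hy => ?_) ?_)
  · rw [h1, Set.ncard_prod, Set.ncard_pair hb.symm, Set.ncard_univ, Nat.card_prod, Nat.card_units] at this
    rw [ncard_sol_conj]
    linear_combination this
  · refine (em _).imp (fun h => mem_stab.2 ⟨hy.1, smul_emb_eq_iff.2 h⟩) fun h => ?_
    obtain ⟨s, a, δ, rfl⟩ := exists_out h
    refine ⟨(s, a, δ), ⟨?_, trivial⟩, rfl⟩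
    rcases sol_cases 2 hr hF (.inl rfl) (h2 _) hy with ⟨c, h5, h6⟩ | ⟨c, d, hcd, h5, h6⟩ | ⟨h5, -⟩
    · exact absurd (smul_emb_eq_iff.1 (emb_eq_inf hb rfl h5 ▸ h6)) h
    · rcases sq_of_swap hcd (h5.2.resolve_left fun h => hcd
        ((emb_eq_inf hb rfl h.1).trans (emb_eq_inf hb rfl h.2).symm)) h6 with h7 | h7
      · exact .inr (CharTwo.add_eq_iff_eq_add.1 (out_sq.1 (aff_mul_out b s a δ ▸ h7)) ▸ by simp)
      · exact .inl (out_sq.1 h7)
    · omega
  · rintro y (hy | ⟨⟨s, a, δ⟩, ⟨rfl | rfl, -⟩, rfl⟩)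
    · exact mem_sol_of_le (isSolvable_of_le_stab le_rfl) ⟨h2 _, smul_emb_eq_iff.2 (aff_smul_inf ..)⟩ hy hy.1
    · exact ⟨h2 _, isSolvable_of_sq h3 (.inr (out_sq.2 rfl))⟩
    · exact ⟨h2 _, isSolvable_of_sq h3 (.inl (by rw [aff_mul_out, out_sq, CharTwo.add_self_eq_zero]))⟩

section three

variable [CharP F 3] {r : ℕ} (hr : r.Prime) (ho : Odd r) (hF : Nat.card F = 3 ^ r)

omit [Finite F] in
theorem aff_cube (b : F) : aff 1 b one_ne_zero ^ 3 = 1 := by
  rw [aff_one_pow, CharP.cast_eq_zero, zero_mul, aff_one_zero]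

include hr ho hF

theorem ncard_sol_three {x : PGL(2, F)} (hx : x ∈ L) (h : orderOf x = 3) :
    2 * (Sol x).ncard = Nat.card F * (Nat.card F + 5) := by
  have : Fact (Nat.Prime 3) := ⟨Nat.prime_three⟩
  obtain ⟨k, b, hb, rfl⟩ := exists_conj_aff 3 h
  have h0 : Odd (Nat.card F) := odd_card_of_ne_two 3 (by norm_num)
  have h1 : b ≠ -b := fun h => mul_ne_zero (two_ne_zero_of_odd_card h0) hb (by linear_combination h)
  have h2 := aff_one_mem_range_pslPGL b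
  have := ncard_stab_union (S := {0, b, -b} ×ˢ Set.univ ×ˢ {Units.mk0 b hb ^ 2})
    (X := Sol (aff 1 b one_ne_zero)) (Set.Subset.antisymm (fun y hy => ?_) ?_)
  · rw [index_psl_odd h0, Set.ncard_prod, Set.ncard_prod, Set.ncard_univ, Set.ncard_singleton,
      Set.ncard_insert_of_notMem (by simp [hb, hb.symm]), Set.ncard_pair h1] at this
    obtain ⟨n, hn⟩ := Nat.exists_eq_succ_of_ne_zero (Nat.card_pos (α := F)).ne'
    rw [ncard_sol_conj]
    rw [hn, Nat.succ_eq_add_one, Nat.add_sub_cancel] at this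
    rw [hn, Nat.succ_eq_add_one]
    linear_combination this
  · refine (em _).imp (fun h => mem_stab.2 ⟨hy.1, smul_emb_eq_iff.2 h⟩) fun h => ?_
    obtain ⟨s, a, δ, rfl⟩ := exists_out h
    suffices s ∈ ({0, b, -b} : Set F) ∧ b ^ 2 = δ from ⟨(s, a, δ), ⟨this.1, trivial, Units.ext this.2.symm⟩, rfl⟩
    rcases sol_cases 3 hr hF (.inr ⟨rfl, ho⟩) h2 hy with ⟨c, h5, h6⟩ | ⟨c, d, hcd, h5, h6⟩ |
      ⟨-, φ, hφ, ⟨u, hu⟩, ⟨v, hv⟩⟩
    · exact absurd (smul_emb_eq_iff.1 (emb_eq_inf hb rfl h5 ▸ h6)) h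
    · have := fix_of_mem_pairStab_of_odd hcd h5 (by decide) (aff_cube b)
      exact absurd ((emb_eq_inf hb rfl this.2.1).trans (emb_eq_inf hb rfl this.2.2).symm) hcd
    have e : ∀ (w : alternatingGroup (Fin 4)) (n : ℕ), w ^ n = 1 → φ w ^ n = 1 := fun _ _ => hom_pow
    rcases a4_three u v (hφ (by rw [map_pow, hu, aff_cube, map_one])) (by
      rintro rfl; exact hb (aff_eq_one_iff.1 (hu.symm.trans φ.map_one)).2) with h7 | h7 | h7 | h7
    · exact absurd (smul_emb_eq_iff.1 ((mob_bar 3).comm_unip_fix (isUnip_emb_iff.2 (isUnip_inf_iff.2 ⟨b, rfl⟩))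
        (by simp [aff_eq_one_iff, hb]) (by rw [← hu, ← hv, ← map_mul, h7, map_mul]))) h
    all_goals
      have h8 := e _ _ h7.1
      have h9 := e _ _ h7.2
      simp only [map_mul, map_inv, hu, hv, aff_inv, inv_one, one_mul, aff_mul_out, out_sq, out_cube] at h8 h9
    · exact ⟨.inl h8, by simpa [h8] using h9⟩
    · exact ⟨.inr (.inr (eq_neg_of_add_eq_zero_right h8)), by rw [← h9, eq_neg_of_add_eq_zero_right h8, neg_sq]⟩
    · exact ⟨.inr (.inl (neg_add_eq_zero.1 h8).symm), by rw [← h9, neg_add_eq_zero.1 h8]⟩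
  · rintro y (hy | ⟨⟨s, a, δ⟩, ⟨hs, -, rfl⟩, rfl⟩)
    · exact mem_sol_of_le (isSolvable_of_le_stab le_rfl) ⟨h2, smul_emb_eq_iff.2 (aff_smul_inf ..)⟩ hy hy.1
    obtain ⟨φ, h3, h4⟩ := exists_hom_A4 (a := out 0 a (Units.mk0 b hb ^ 2)) (out_sq.2 rfl) (aff_cube b) (by
      rw [pow_three_eq_one_iff, tau_mul_comm, aff_mul_out, tau_out]
      simp [hb])
    have h5 : aff 1 b one_ne_zero ∈ φ.range := ⟨_, h4⟩
    refine mem_sol_of_le (isSolvable_range φ) h5 ?_ (out_mem.2 ⟨b, by simp [sq]⟩)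
    rcases hs with rfl | hs | rfl
    · exact ⟨_, h3⟩
    · simpa [aff_mul_out, show s = b from hs] using mul_mem h5 ⟨_, h3⟩
    · simpa [aff_mul_out, aff_inv] using mul_mem (inv_mem h5) ⟨_, h3⟩

omit [CharP F 3] hr in
theorem card_mod_four : Nat.card F % 4 = 3 := by
  obtain ⟨m, rfl⟩ := ho
  rw [hF, pow_succ, pow_mul, Nat.mul_mod, Nat.pow_mod]
  simp

omit [CharP F 3] hr in
theorem exists_out_of_sq {x : PGL(2, F)} (hx : x ∈ L) (h : x ^ 2 = 1) (h1 : x ≠ 1) :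
    ∃ (a : F) (δ : Fˣ), IsSquare (δ : F) ∧ x = out 0 a δ := by
  by_cases h2 : x • (inf : P1 F) = inf
  · obtain ⟨a, b, ha, rfl⟩ := exists_aff h2
    have h3 := (pow_two_eq_one_iff.1 h).resolve_right h1
    rw [aff, tau_pm] at h3
    have := Fintype.ofFinite F
    refine absurd (Nat.card_eq_fintype_card (α := F) ▸ card_mod_four ho hF)
      (FiniteField.isSquare_neg_one_iff.1 ?_)
    simpa [eq_neg_of_add_eq_zero_left (show a + 1 = 0 by simpa [ha] using h3)] using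
      pm_mem_range_pslPGL_iff.1 hx
  · obtain ⟨s, a, δ, rfl⟩ := exists_out h2
    obtain rfl := out_sq.1 h
    exact ⟨a, δ, out_mem.1 hx, rfl⟩

omit [CharP F 3] hr in
theorem ncard_invol : 2 * {y : PGL(2, F) | y ∈ L ∧ y ^ 2 = 1}.ncard = 2 + Nat.card F * (Nat.card F - 1) := by
  classical
  have := Fintype.ofFinite F
  have h1 : ¬ IsSquare (-1 : F) := by
    rw [FiniteField.isSquare_neg_one_iff, ← Nat.card_eq_fintype_card, card_mod_four ho hF]; simp
  have h2 : ∀ δ : Fˣ, IsSquare (-δ : F) ↔ ¬ IsSquare (δ : F) := fun δ => by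
    rw [← quadraticChar_one_iff_isSquare (by simp), ← quadraticChar_neg_one_iff_not_isSquare, ← neg_one_mul,
      map_mul, quadraticChar_neg_one_iff_not_isSquare.2 h1, neg_one_mul, neg_eq_iff_eq_neg]
  have h3 := Set.ncard_add_ncard_compl {δ : Fˣ | IsSquare (δ : F)}
  rw [show {δ : Fˣ | IsSquare (δ : F)}ᶜ = (-·) '' {δ : Fˣ | IsSquare (δ : F)} from Set.ext fun δ => by
    simp [h2], Set.ncard_image_of_injective _ neg_injective, Nat.card_units] at h3
  rw [show {y : PGL(2, F) | y ∈ L ∧ y ^ 2 = 1} = insert 1 ((fun x : F × F × Fˣ => out x.1 x.2.1 x.2.2) ''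
      {0} ×ˢ Set.univ ×ˢ {δ : Fˣ | IsSquare (δ : F)}) from Set.ext fun y => ⟨fun hy => (em _).imp_right fun h => by
        obtain ⟨a, δ, h4, rfl⟩ := exists_out_of_sq ho hF hy.1 hy.2 h
        exact ⟨(0, a, δ), ⟨rfl, trivial, h4⟩, rfl⟩, by
      rintro (rfl | ⟨⟨s, a, δ⟩, ⟨rfl, -, h⟩, rfl⟩)
      exacts [⟨one_mem _, one_pow _⟩, ⟨out_mem.2 h, out_sq.2 rfl⟩]⟩,
    Set.ncard_insert_of_notMem (by rintro ⟨_, _, h⟩; exact out_ne_one _ _ _ h), ncard_out, Set.ncard_prod,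
    Set.ncard_prod, Set.ncard_singleton, Set.ncard_univ, ← h3]
  ring

omit hr in
theorem ncard_cube {x : PGL(2, F)} (hx : x ∈ L) (h : x ^ 2 = 1) (h1 : x ≠ 1) :
    {y : PGL(2, F) | y ^ 3 = 1 ∧ (x * y) ^ 3 = 1}.ncard = 2 * (Nat.card F + 1) := by
  have : Fact (Nat.Prime 3) := ⟨Nat.prime_three⟩
  have := Fintype.ofFinite (P1 F)
  have h0 : ∀ y : PGL(2, F), (x * y) ^ 3 = 1 → y ≠ 1 := by
    rintro _ h2 rfl
    exact h1 (by rwa [mul_one, pow_succ, h, one_mul] at h2)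
  have h2 : ∀ z : P1 F, Nat.card {y : PGL(2, F) // IsUnip z y ∧ (x * y) ^ 3 = 1} = 2 := fun z => by
    obtain ⟨k, rfl⟩ := exists_smul_inf z
    obtain ⟨a, δ, ⟨c, hc⟩, e⟩ := exists_out_of_sq ho hF (psl_normal.conj_mem' _ hx k)
      (by rw [← inv_inv k, inv_inv k⁻¹, conj_pow, h]; simp) (by simpa [mul_assoc, inv_mul_eq_one] using h1)
    have hc0 : c ≠ -c := fun h => mul_ne_zero (two_ne_zero_of_odd_card (odd_card_of_ne_two 3 (by norm_num)))
      (mul_ne_zero_iff.1 (hc ▸ δ.ne_zero)).1 (by linear_combination h)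
    have h3 : ∀ b, (x * (k * aff 1 b one_ne_zero * k⁻¹)) ^ 3 = 1 ↔ b = c ∨ b = -c := fun b => by
      rw [← sq_eq_sq_iff_eq_or_eq_neg, sq c, ← hc, ← add_zero b, ← out_cube (a := a), ← aff_mul_out, ← e,
        add_zero, show x * (k * aff 1 b one_ne_zero * k⁻¹) = (k * (aff 1 b one_ne_zero)⁻¹) *
          (aff 1 b one_ne_zero * (k⁻¹ * x * k)) * (k * (aff 1 b one_ne_zero)⁻¹)⁻¹ by group, conj_pow,
        conj_eq_one_iff]
    refine (Set.ncard_eq_two (s := {y | _})).2 ⟨k * aff 1 c one_ne_zero * k⁻¹, k * aff 1 (-c) one_ne_zero * k⁻¹,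
      by simpa [aff_inj] using hc0, Set.ext fun y => ⟨fun hy => ?_, ?_⟩⟩
    · obtain ⟨b, hb⟩ := isUnip_inf_iff.1 (isUnip_smul_iff.1 hy.1)
      obtain rfl : y = k * aff 1 b one_ne_zero * k⁻¹ := by rw [← hb]; group
      exact ((h3 b).1 hy.2).imp (fun h => by rw [h]) fun h => by rw [h]; rfl
    · rintro (rfl | rfl)
      exacts [⟨isUnip_conj_aff _ _, (h3 _).2 (.inl rfl)⟩, ⟨isUnip_conj_aff _ _, (h3 _).2 (.inr rfl)⟩]
  refine (Nat.card_congr (Equiv.ofBijective (β := {y : PGL(2, F) | y ^ 3 = 1 ∧ (x * y) ^ 3 = 1})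
    (fun w : Σ z : P1 F, {y : PGL(2, F) // IsUnip z y ∧ (x * y) ^ 3 = 1} =>
      ⟨w.2.1, pgl_unip_pow 3 w.2.2.1, w.2.2.2⟩) ⟨?_, fun y => ?_⟩)).symm.trans ?_
  · rintro ⟨z, y, hy⟩ ⟨z', y', hy'⟩ h
    obtain rfl : y = y' := congrArg Subtype.val h
    obtain rfl := hy.1.eq_of_fix (h0 y hy.2) hy'.1.fix
    rfl
  · obtain ⟨u, hu⟩ := bar_fix1 y.1
    have h3 := bar_isUnip_of_pow_char 3 hu 1 y.2.1
    obtain ⟨u, rfl⟩ := mem_range_emb_of_isUnip h3 (h0 _ y.2.2)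
    exact ⟨⟨u, y, isUnip_emb_iff.1 h3, y.2.2⟩, rfl⟩
  · simp [Nat.card_sigma, h2, ← Nat.card_eq_fintype_card, P1.card, mul_comm]

theorem ncard_sol_invol {x : PGL(2, F)} (hx : x ∈ L) (h : orderOf x = 2) :
    (Sol x).ncard = Nat.card F * (Nat.card F + 1) := by
  have : Fact (Nat.Prime 3) := ⟨Nat.prime_three⟩
  have h0 : Odd (Nat.card F) := odd_card_of_ne_two 3 (by norm_num)
  have h1 : x ≠ 1 := by rintro rfl; simp at h
  have h2 : x ^ 2 = 1 := orderOf_dvd_iff_pow_eq_one.1 h.dvd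
  have h3 : x ^ 3 ≠ 1 := by rwa [pow_succ, h2, one_mul]
  have h4 := card_mod_four ho hF
  rcases fix_cases 3 hx h3 with ⟨h5, -⟩ | ⟨-, a, b, hab, h5⟩
  · rw [h, index_psl_odd h0] at h5; omega
  have hne := hab.2.1
  have hT := hab.card_stab2 le_rfl (by omega)
  have hC := hab.card_pairStab le_rfl (by omega)
  rw [index_psl_odd h0] at hT hC
  have hxC := stab2_le_pairStab _ _ _ h5
  have hc : ∀ c d : Pbar F, c ≠ d → x • c = c → x • d = d → pairStab L c d ≤ pairStab L a b :=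
    fun c d hcd hc hd => le_pairStab_of_le (pairStab_eq_of_fix h1 hne hcd h5 ⟨mem_top _, hc, hd⟩ ▸
      le_pairStab_top le_rfl) (pairStab_le _ _ _)
  have e3 : ∀ y ∈ pairStab L a b, y ^ 3 = 1 → y = 1 := fun y hy h => orderOf_eq_one_iff.1 (by
    have e1 := Subgroup.orderOf_dvd_natCard _ hy
    rcases (Nat.dvd_prime Nat.prime_three).1 (orderOf_dvd_of_pow_eq_one h) with e | e
    · exact e
    · have := char_dvd_card (F := F) 3
      rw [e] at e1
      omega)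
  set I := {y : PGL(2, F) | y ∈ L ∧ y ^ 2 = 1}
  set C := (pairStab L a b : Set PGL(2, F))
  have e : Sol x = (C ∪ (I \ C ∪ (x * ·) '' (I \ C))) ∪ {y | y ^ 3 = 1 ∧ (x * y) ^ 3 = 1} := by
    have hxx : ∀ y, x * (x * y) = y := fun y => by rw [← mul_assoc, ← sq, h2, one_mul]
    refine Set.Subset.antisymm (fun y hy => ?_) ?_
    · by_cases hyC : y ∈ C
      · exact .inl (.inl hyC)
      rcases sol_cases 3 hr hF (.inr ⟨rfl, ho⟩) hx hy with ⟨c, h6, -⟩ | ⟨c, d, hcd, h6, h7⟩ |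
        ⟨-, φ, hφ, ⟨u, rfl⟩, ⟨v, rfl⟩⟩
      · rcases bar_fix_cases h1 hne h5.2.1 h5.2.2 h6 with h7 | h7
        exacts [absurd ⟨c, h7⟩ hab.1.1, absurd ⟨c, h7⟩ hab.symm.1.1]
      · rcases sq_of_swap hcd (h6.2.resolve_left fun h => hyC (hc c d hcd h.1 h.2 h7)) h7 with h8 | h8
        · exact .inl (.inr (.inr ⟨x * y, ⟨⟨mul_mem hx hy.1, h8⟩, fun h => hyC (hxx y ▸ mul_mem hxC h)⟩, hxx y⟩))
        · exact .inl (.inr (.inl ⟨⟨hy.1, h8⟩, hyC⟩))
      · rcases a4_two u v (hφ (by rw [map_pow, h2, map_one])) (by rintro rfl; exact h1 φ.map_one) with h | h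
        · exact .inl (.inr (.inl ⟨⟨hy.1, hom_pow h⟩, hyC⟩))
        · exact .inr ⟨hom_pow h.1, map_mul φ u v ▸ hom_pow h.2⟩
    · rintro y ((hy | hy | ⟨y, hy, rfl⟩) | hy)
      · exact mem_sol_of_le (isSolvable_of_le_pairStab hne le_rfl) hxC hy hy.1
      · exact ⟨hy.1.1, isSolvable_of_sq h2 (.inr hy.1.2)⟩
      · exact ⟨mul_mem hx hy.1.1, isSolvable_of_sq h2 (.inl (by rw [hxx, hy.1.2]))⟩
      · obtain ⟨φ, h6, h7⟩ := exists_hom_A4 h2 hy.1 hy.2
        exact mem_sol_of_le (isSolvable_range φ) ⟨_, h6⟩ ⟨_, h7⟩ (mem_psl_of_odd (by decide) hy.1)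
  have e1 : ∀ y : PGL(2, F), y ^ 2 = 1 → y ^ 3 = 1 → y = 1 := fun y h h' => by rwa [pow_succ, h, one_mul] at h'
  rw [e, Set.ncard_union_eq (Set.disjoint_left.2 ?_), Set.ncard_union_eq (Set.disjoint_left.2 ?_),
    Set.ncard_union_eq (Set.disjoint_left.2 ?_), Set.ncard_image_of_injective _ (mul_right_injective x),
    ncard_cube ho hF hx h2 h1]
  · have e2 := Set.ncard_inter_add_ncard_sdiff_eq_ncard I C
    have e4 := Set.ncard_sdiff_add_ncard_of_subset (show (stab2 L a b : Set PGL(2, F)) ⊆ C from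
      stab2_le_pairStab _ _ _)
    have e5 := ncard_invol ho hF
    rw [show I ∩ C = insert 1 (insert x (C \ stab2 L a b)) from Set.ext fun y => ⟨fun hy => ?_, ?_⟩,
      Set.ncard_insert_of_notMem (by simp [h1.symm, one_mem]), Set.ncard_insert_of_notMem (by simp [h5])] at e2
    · obtain ⟨n, hn⟩ := Nat.exists_eq_succ_of_ne_zero (Nat.card_pos (α := F)).ne'
      change C.ncard * 2 = _ at hC
      change Set.ncard _ * 2 = _ at hT
      change 2 * I.ncard = _ at e5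
      rw [hn, Nat.succ_eq_add_one] at *
      rw [Nat.add_sub_cancel] at e5
      nlinarith
    · by_cases hy' : y ∈ stab2 L a b
      · have := isCyclic_stab2 3 L hne
        by_contra hh
        simp only [Set.mem_insert_iff, not_or] at hh
        classical
        have := Fintype.ofFinite (stab2 L a b)
        exact (IsCyclic.card_pow_eq_one_le (α := stab2 L a b) two_pos).not_gt (Finset.two_lt_card_iff.2
          ⟨1, ⟨x, h5⟩, ⟨y, hy'⟩, by simp, by simpa [Subtype.ext_iff], by simpa [Subtype.ext_iff] using hy.1.2,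
            by simpa [Subtype.ext_iff] using h1.symm, by simpa [Subtype.ext_iff] using Ne.symm hh.1,
            by simpa [Subtype.ext_iff] using Ne.symm hh.2.1⟩)
      · exact .inr (.inr ⟨hy.2, hy'⟩)
    · rintro (rfl | rfl | hy)
      · exact ⟨⟨one_mem _, one_pow _⟩, one_mem (pairStab L a b)⟩
      · exact ⟨⟨hx, h2⟩, hxC⟩
      · exact ⟨⟨hy.1.1, swap_sq hne (hy.1.2.resolve_left fun h => hy.2 ⟨hy.1.1, h⟩)⟩, hy.1⟩
  · rintro _ hy ⟨y, hy', rfl⟩
    refine hy'.2 ⟨hy'.1.1, (mob_bar 3).comm_fix h1 hne h5.2.1 h5.2.2 ?_⟩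
    rw [← mul_eq_one_iff_inv_eq.1 ((sq (x * y)).symm.trans hy.1.2), _root_.mul_inv_rev,
      mul_eq_one_iff_inv_eq.1 ((sq _).symm.trans hy'.1.2), mul_eq_one_iff_inv_eq.1 ((sq _).symm.trans h2)]
  · rintro y hy (hy' | ⟨y, hy', rfl⟩)
    exacts [hy'.2 hy, hy'.2 ((mul_mem_cancel_left hxC).1 hy)]
  · rintro y (hy | hy | ⟨y, hy, rfl⟩) hy'
    · exact h3 (by simpa [e3 y hy hy'.1] using hy'.2)
    · exact h3 (by simpa [e1 y hy.1.2 hy'.1] using hy'.2)
    · exact hy.2 (e1 y hy.1.2 (by simpa [← mul_assoc, ← sq, h2] using hy'.2) ▸ one_mem (pairStab L a b))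

end three

end CfsgLib.PslSol
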